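import Cfsg.Agent.CV.Tg
import Cfsg.Agent.H70.Syl

/-! Project CV: involutions with centraliser `2 x PGL2(7)`, first facts. -/

set_option autoImplicit false
set_option linter.unusedSectionVars false

namespace Cfsg.Agent.CV.A2x

open Subgroup H70

variable {G : Type*} [Group G] [Finite G] {x s : G} {W : Subgroup G}

theorem sq_of_two {t : G} (h : orderOf t = 2) : t * t = 1 := by rw [← sq, ← h, pow_orderOf_eq_one]
theorem ne_of_two {t : G} (h : orderOf t = 2) : t ≠ 1 := fun e => by simp [e] at h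
theorem two_of {t : G} (h : t * t = 1) (h1 : t ≠ 1) : orderOf t = 2 :=
  orderOf_eq_prime (by rw [sq, h]) h1
theorem order_conj (g t : G) : orderOf (g * t * g⁻¹) = orderOf t := by
  rw [← MulAut.conj_apply, MulEquiv.orderOf_eq]
theorem conj_of {g p q : G} (h : g * p * g⁻¹ = q) : IsConj p q := isConj_iff.2 ⟨g, h⟩
theorem order_of_conj {p q : G} {n : ℕ} (c : IsConj p q) (h : orderOf p = n) : orderOf q = n := by
  obtain ⟨g, rfl⟩ := isConj_iff.1 c
  rwa [order_conj]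
theorem comm_conj {p q : G} (h : Commute p q) (g : G) : Commute (g * p * g⁻¹) (g * q * g⁻¹) :=
  h.map (MulAut.conj g)

theorem spl_comm {t p q : G} {K : Subgroup G} (h : Spl t K) (hp : Commute p t) (hq : Commute q t) :
    p * q * p⁻¹ * q⁻¹ ≠ t := fun e => by
  have e1 : ∀ p q : G, Commute p t → Commute q t →
      t * p * q * (t * p)⁻¹ * q⁻¹ = p * q * p⁻¹ * q⁻¹ := fun p q hp hq => by
    rw [show t * p * q * (t * p)⁻¹ * q⁻¹ = t * (p * q * p⁻¹) * t⁻¹ * q⁻¹ by group,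
      ← ((hp.mul_left hq).mul_left hp.inv_left).eq, mul_inv_cancel_right]
  have e2 : ∀ p q : G, Commute p t → p * (t * q) * p⁻¹ * (t * q)⁻¹ = t * (p * q * p⁻¹ * q⁻¹) * t⁻¹ :=
    fun p q hp => by rw [← mul_assoc p, hp.eq]; group
  have c : ∀ p ∈ K, ∀ q ∈ K, p * q * p⁻¹ * q⁻¹ ∈ K := fun p a q b =>
    mul_mem (mul_mem (mul_mem a b) (inv_mem a)) (inv_mem b)
  refine h.notMem ?_
  rcases h.all p hp with a | a <;> rcases h.all q hq with b | b <;> have := c _ a _ b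
  · rwa [e] at this
  · rwa [e2 _ _ hp, e, mul_inv_cancel_right] at this
  · rwa [e1 _ _ hp hq, e] at this
  · rwa [e1 _ _ hp ((Commute.refl t).mul_left hq), e2 _ _ hp, e, mul_inv_cancel_right] at this

theorem not_conj {t z p q : G} {K : Subgroup G} (h : Spl t K) (hp : Commute p z) (hq : Commute q z)
    (e : p * q * p⁻¹ * q⁻¹ = z) : ¬ IsConj z t := fun c => by
  obtain ⟨g, rfl⟩ := isConj_iff.1 c
  exact spl_comm h (comm_conj hp g) (comm_conj hq g) (by rw [← e]; group)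

theorem a2_conj {t t' : G} (h : A2 t) (c : IsConj t t') : A2 t' := by
  obtain ⟨g, rfl⟩ := isConj_iff.1 c
  obtain ⟨K, h, ⟨e⟩⟩ := h
  refine ⟨cj g K, ⟨fun m => h.notMem (by simpa [mul_assoc] using mem_cj.1 m), ?_, fun k hk => ?_⟩,
    ⟨(K.equivMapOfInjective _ (MulAut.conj g).injective).symm.trans e⟩⟩
  · rintro _ ⟨k, hk, rfl⟩
    exact comm_conj (h.comm k hk) g
  · rw [mem_cj, mem_cj]
    simpa [mul_assoc] using h.all (g⁻¹ * k * g) (by simpa [mul_assoc] using comm_conj hk g⁻¹)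

/-- the centraliser contains an element of order three -/
def T3 (i : G) : Prop := ∃ y, orderOf y = 3 ∧ Commute y i

theorem T3.conj {i j : G} (h : T3 i) (c : IsConj i j) : T3 j := by
  obtain ⟨g, rfl⟩ := isConj_iff.1 c
  obtain ⟨y, h1, h2⟩ := h
  exact ⟨_, (order_conj g y).trans h1, comm_conj h2 g⟩

theorem three_zp {y : G} (hy : y ^ 3 = 1) : IsPGroup 3 (zpowers y) :=
  isPGroup_iff_mem.2 fun g ⟨n, e⟩ => ⟨1, by
    rw [← e, pow_one, ← zpow_natCast, ← zpow_mul, mul_comm, zpow_mul, zpow_natCast, hy, one_zpow]⟩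

theorem syl3 (h9 : ¬ 9 ∣ Nat.card G) (hx : orderOf x = 3) : H92.SylIn 3 (zpowers x) ⊤ :=
  have : Fact (Nat.Prime 3) := ⟨by decide⟩
  ⟨le_top, three_zp (hx ▸ pow_orderOf_eq_one x), fun Q _ hQ hle => by
    obtain ⟨n, hn⟩ := IsPGroup.iff_card.1 hQ
    refine (eq_of_le_of_card_ge hle ?_).symm
    rw [Nat.card_zpowers, hx, hn]
    by_contra k
    have : 2 ≤ n := by
      by_contra l
      exact k (Nat.pow_le_pow_right (by decide) (by omega : n ≤ 1))
    exact h9 ((pow_dvd_pow 3 this).trans (hn ▸ card_subgroup_dvd_card Q))⟩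

theorem sol_inv0 [Group.IsSolvable G] (h9 : ¬ 9 ∣ Nat.card G) {y e u : G} (hy : orderOf y = 3)
    (h : e * u * e⁻¹ * u⁻¹ * y * (e * u * e⁻¹ * u⁻¹)⁻¹ = y⁻¹) : False := by
  have : Fact (Nat.Prime 3) := ⟨by decide⟩
  have h3 : y ^ 3 = 1 := hy ▸ pow_orderOf_eq_one y
  have key : ∀ k, y ∈ derivedSeries G k := fun k => by
    induction k with
    | zero => trivial
    | succ k ih =>
      by_contra n
      let π := QuotientGroup.mk' (derivedSeries G (k + 1))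
      have o : orderOf (π y) = 3 := orderOf_eq_prime (by rw [← map_pow, h3, map_one])
        fun e => n ((QuotientGroup.eq_one_iff y).1 e)
      have c : ∀ g : G, ∃ m : ℤ, π g * π y * (π g)⁻¹ = π y ^ m := fun g => by
        have c1 : Commute (π y) (π (g * y * g⁻¹)) := by
          rw [← commutatorElement_eq_one_iff_commute, ← map_commutatorElement]
          exact (QuotientGroup.eq_one_iff _).2 (commutator_mem_commutator ih
            ((derivedSeries_normal G k).conj_mem y ih g))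
        obtain ⟨m, hm⟩ := le_sylIn_of_norm (syl3 (fun d => h9 (d.trans (card_quotient_dvd_card _))) o)
          le_top (three_zp (y := π (g * y * g⁻¹)) (by
            rw [← map_pow, conj_pow, h3, mul_one, mul_inv_cancel, map_one]))
          (zpowers_le.2 (centralizer_le_normalizer _ (by
            rintro _ ⟨n, rfl⟩; exact (c1.zpow_right n).symm))) (mem_zpowers _)
        exact ⟨m, by rw [← map_mul, ← map_inv, ← map_mul]; exact hm.symm⟩
      obtain ⟨m, hm⟩ := c e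
      obtain ⟨l, hl⟩ := c u
      have c2 : π e * π u * π y * (π e * π u)⁻¹ = π u * π e * π y * (π u * π e)⁻¹ := by
        calc _ = π e * (π u * π y * (π u)⁻¹) * (π e)⁻¹ := by group
          _ = π u * (π e * π y * (π e)⁻¹) * (π u)⁻¹ := by
            rw [hl, ← conj_zpow, hm, ← conj_zpow, hl, ← zpow_mul, ← zpow_mul, mul_comm]
          _ = _ := by group
      obtain ⟨j, hj⟩ := c (u * e)⁻¹
      have c3 := congrArg π h
      simp only [map_mul, map_inv] at c3 hj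
      have c4 : (π y)⁻¹ = π y := by
        calc _ = π e * π u * ((π u * π e)⁻¹ * π y * (π u * π e)⁻¹⁻¹) * (π e * π u)⁻¹ := by
              rw [← c3]; group
          _ = π u * π e * ((π u * π e)⁻¹ * π y * (π u * π e)⁻¹⁻¹) * (π u * π e)⁻¹ := by
              rw [hj, ← conj_zpow, c2, conj_zpow]
          _ = _ := by group
      exact absurd (o ▸ orderOf_dvd_of_pow_eq_one (n := 2) (by
        rw [sq]; exact mul_eq_one_iff_inv_eq.2 c4)) (by decide)
  obtain ⟨k, hk⟩ := Group.IsSolvable.solvable (G := G)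
  have := key k
  rw [hk, mem_bot] at this
  simp [this] at hy

theorem sol_inv (h9 : ¬ 9 ∣ Nat.card G) {o y e u z : G} (hy : orderOf y = 3) (c1 : Commute y o)
    (c2 : Commute e o) (c3 : Commute u o) (e1 : e * u * e⁻¹ * u⁻¹ = z) (h : z * y * z⁻¹ = y⁻¹) :
    ¬ Group.IsSolvable (centralizer ({o} : Set G)) := fun _ =>
  sol_inv0 (G := centralizer ({o} : Set G)) (fun d => h9 (d.trans (card_subgroup_dvd_card _)))
    (y := ⟨y, mem_centralizer_singleton_iff.2 c1⟩) (e := ⟨e, mem_centralizer_singleton_iff.2 c2⟩)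
    (u := ⟨u, mem_centralizer_singleton_iff.2 c3⟩) ((orderOf_coe _).symm.trans hy)
    (Subtype.ext (by subst e1; exact h))

theorem conj3 (h : Ctx x s W) {y : G} (hy : orderOf y = 3) : ∃ g, g * x * g⁻¹ = y := by
  have : Fact (Nat.Prime 3) := ⟨by decide⟩
  obtain ⟨g, -, hg⟩ := (syl3 h.h9 h.hx).exists_conj le_top (three_zp (hy ▸ pow_orderOf_eq_one y))
  obtain ⟨n, hn⟩ := hg y (mem_zpowers y)
  have h3 : x ^ (3 : ℤ) = 1 := by rw [zpow_ofNat, ← h.hx, pow_orderOf_eq_one]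
  have h4 : x ^ (n % 3) = g * y * g⁻¹ := by rw [← zpow_eq_zpow_emod n h3]; exact hn
  rcases (by omega : n % 3 = 0 ∨ n % 3 = 1 ∨ n % 3 = 2) with e | e | e <;> rw [e] at h4
  · rw [conj_eq_one_iff.1 (h4.symm.trans (zpow_zero x))] at hy
    simp at hy
  · exact ⟨g⁻¹, by rw [← zpow_one x, h4]; group⟩
  · refine ⟨g⁻¹ * s, ?_⟩
    rw [show g⁻¹ * s * x * (g⁻¹ * s)⁻¹ = g⁻¹ * (s * x * s⁻¹) * g by group, h.inv,
      show x⁻¹ = x ^ (2 : ℤ) from inv_eq_of_mul_eq_one_left (by rw [← h3]; group), h4]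
    group

theorem ctx_conj (h : Ctx x s W) (g : G) : Ctx (g * x * g⁻¹) (g * s * g⁻¹) (cj g W) where
  simple := h.simple
  nonab := h.nonab
  h5 := h.h5
  h9 := h.h9
  hx := (order_conj g x).trans h.hx
  hs := (order_conj g s).trans h.hs
  inv := by rw [conj_inv (b := g) (a := x), ← h.inv]; group
  sq := by rintro _ ⟨w, hw, rfl⟩; exact (conj_mul).trans (conj_eq_one_iff.2 (h.sq w hw))
  cx := by rintro _ ⟨w, hw, rfl⟩; exact comm_conj (h.cx w hw) g
  cs := by rintro _ ⟨w, hw, rfl⟩; exact comm_conj (h.cs w hw) g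
  cent := fun k hk => by
    obtain ⟨w, hw, e⟩ := h.cent (g⁻¹ * k * g) (by simpa [mul_assoc] using comm_conj hk g⁻¹)
    refine ⟨_, conj_mem_cj g hw, ?_⟩
    rw [show k = g * (g⁻¹ * k * g) * g⁻¹ by group]
    rcases e with e | e | e <;> rw [e]
    exacts [.inl rfl, .inr (.inl (by group)), .inr (.inr (by group))]
  nc := by
    rintro _ ⟨w, hw, rfl⟩ _ ⟨w', hw', rfl⟩ c
    rw [h.nc w hw w' hw' (((conj_of rfl).trans c).trans (conj_of rfl).symm)]
  f2 := fun t ht => by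
    obtain ⟨w, hw, c⟩ := h.f2 t ht
    exact ⟨_, conj_mem_cj g hw, (conj_of (g := g) (by group)).symm.trans c⟩

theorem mem_W (h : Ctx x s W) {t : G} (h1 : t * t = 1) (h2 : Commute t x) : t ∈ W := by
  have n : ∀ y : G, orderOf y = 3 → ∀ w ∈ W, Commute w y → w * y * (w * y) ≠ 1 := fun y hy w hw c e => by
    rw [c.symm.mul_mul_mul_comm, h.sq w hw, one_mul, ← sq] at e
    exact absurd (hy ▸ orderOf_dvd_of_pow_eq_one e) (by decide)
  obtain ⟨w, hw, rfl | rfl | rfl⟩ := h.cent t h2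
  exacts [hw, absurd h1 (n _ h.hx w hw (h.cx w hw)),
    absurd h1 (n _ ((orderOf_inv x).trans h.hx) w hw (h.cx w hw).inv_right)]

/-- the data of `PF` inside the ambient group -/
structure PD (t : G) (K L : Subgroup G) (a b x₁ x₂ : G) : Prop where
  ot : orderOf t = 2
  spl : Spl t K
  LK : L ≤ K
  aK : a ∈ K
  bL : b ∈ L
  x₁K : x₁ ∈ K
  x₂K : x₂ ∈ K
  mulL : ∀ k ∈ K, ∀ k' ∈ K, (k * k' ∈ L ↔ (k ∈ L ↔ k' ∈ L))
  oa : orderOf a = 8
  ob : orderOf b = 2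
  ba : b * a * b⁻¹ = a⁻¹
  aL : a ∉ L
  inner : ∀ c ∈ L, ∀ d ∈ L, orderOf c = 2 → orderOf d = 2 → ∃ k ∈ K, k * c * k⁻¹ = d
  outer : ∀ c ∈ K, c ∉ L → ∀ d ∈ K, d ∉ L → orderOf c = 2 → orderOf d = 2 → ∃ k ∈ K, k * c * k⁻¹ = d
  centz : ∀ g ∈ K, Commute g (a ^ 4) → ∃ i : ℤ, g = a ^ i ∨ g = a ^ i * b
  x₁z : x₁ * a ^ 4 * x₁⁻¹ = b
  x₁b : x₁ * b * x₁⁻¹ = a ^ 4 * b
  ox₂ : orderOf x₂ = 3
  x₂c : Commute x₂ (a * b)
  x₂z : a ^ 4 * x₂ * (a ^ 4)⁻¹ = x₂⁻¹
  four : ∀ g ∈ K, g ∉ L → g ^ 4 = 1 → g * g = 1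
  six : ∀ y ∈ K, ∀ c ∈ K, orderOf y = 3 → orderOf c = 2 → Commute c y → c ∉ L

theorem exists_pd {t : G} (ht : orderOf t = 2) (h : A2 t) : ∃ K L a b x₁ x₂, PD t K L a b x₁ x₂ := by
  obtain ⟨K, h, ⟨e⟩⟩ := h
  obtain ⟨L, a, b, x₁, x₂, P⟩ := exists_pf e
  have m : ∀ {k : G} (hk : k ∈ K), k ∈ L.map K.subtype ↔ (⟨k, hk⟩ : K) ∈ L := fun hk =>
    mem_map_iff_mem (f := K.subtype) K.subtype_injective (x := ⟨_, hk⟩)
  have o : ∀ {k : G} (hk : k ∈ K), orderOf (⟨k, hk⟩ : K) = orderOf k := fun hk => (orderOf_coe _).symm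
  have c : ∀ {p q : K}, IsConj p q → ∃ k ∈ K, k * p * k⁻¹ = q := fun c =>
    let ⟨k, e⟩ := isConj_iff.1 c
    ⟨k, k.2, congrArg Subtype.val e⟩
  exact ⟨K, L.map K.subtype, a, b, x₁, x₂, ht, h, map_subtype_le L, a.2, (m b.2).2 P.bL, x₁.2, x₂.2,
    fun k hk k' hk' => by
      rw [m hk, m hk', m (mul_mem hk hk')]; exact mul_mem_iff_of_index_two P.index (a := ⟨k, hk⟩) (b := ⟨k', hk'⟩),
    (orderOf_coe a).trans P.oa, (orderOf_coe b).trans P.ob, congrArg Subtype.val P.ba,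
    mt (m a.2).1 P.aL,
    fun p hp q hq h1 h2 => c (P.inner ⟨p, map_subtype_le L hp⟩ ((m _).1 hp) ⟨q, map_subtype_le L hq⟩
      ((m _).1 hq) ((o _).trans h1) ((o _).trans h2)),
    fun p hp hp' q hq hq' h1 h2 => c (P.outer ⟨p, hp⟩ (mt (m _).2 hp') ⟨q, hq⟩ (mt (m _).2 hq')
      ((o _).trans h1) ((o _).trans h2)),
    fun g hg h1 => let ⟨i, e⟩ := P.centz ⟨g, hg⟩ (Subtype.ext h1)
      ⟨i, by rw [zpow_natCast]; exact e.imp (congrArg Subtype.val) (congrArg Subtype.val)⟩,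
    congrArg Subtype.val P.x₁z, congrArg Subtype.val P.x₁b, (orderOf_coe x₂).trans P.ox₂,
    congrArg Subtype.val P.x₂c, congrArg Subtype.val P.x₂z,
    fun g hg h1 h2 => congrArg Subtype.val (P.four ⟨g, hg⟩ (mt (m _).2 h1) (Subtype.ext h2)),
    fun y hy p hp h1 h2 h3 => mt (m hp).1 (P.six ⟨y, hy⟩ ⟨p, hp⟩ ((o _).trans h1) ((o _).trans h2)
      (Subtype.ext h3))⟩

namespace PD

variable {t a b x₁ x₂ : G} {K L : Subgroup G} (D : PD t K L a b x₁ x₂)
include D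

theorem tt : t * t = 1 := sq_of_two D.ot
theorem bb : b * b = 1 := sq_of_two D.ob
theorem bK : b ∈ K := D.LK D.bL
theorem aeq {i j : ℤ} : a ^ i = a ^ j ↔ i % 8 = j % 8 := by
  rw [zpow_eq_zpow_iff_modEq, D.oa]; rfl
theorem b_a (i : ℤ) : b * a ^ i = a ^ (-i) * b := by
  rw [← mul_inv_eq_iff_eq_mul, ← conj_zpow, D.ba, inv_zpow']
theorem B_mul (i j : ℤ) : a ^ i * b * (a ^ j * b) = a ^ (i - j) := by
  rw [mul_assoc, ← mul_assoc b, D.b_a, mul_assoc, D.bb]; group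
theorem B_sq (i : ℤ) : a ^ i * b * (a ^ i * b) = 1 := by rw [D.B_mul, sub_self, zpow_zero]
theorem a_B (m i : ℤ) : a ^ m * (a ^ i * b) * (a ^ m)⁻¹ = a ^ (i + 2 * m) * b := by
  rw [mul_assoc, mul_assoc, ← zpow_neg, D.b_a]; group
theorem b_B (i : ℤ) : b * (a ^ i * b) * b⁻¹ = a ^ (-i) * b := by
  rw [← mul_assoc, D.b_a]; group
theorem zz : a ^ 4 * a ^ 4 = 1 := by
  rw [← pow_add, show 4 + 4 = orderOf a from D.oa.symm, pow_orderOf_eq_one]
theorem z_ne : a ^ 4 ≠ 1 := fun e => absurd (D.oa ▸ orderOf_dvd_of_pow_eq_one e) (by decide)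
theorem bz : Commute b (a ^ 4) := by
  rw [Commute, SemiconjBy, ← zpow_ofNat, D.b_a, D.aeq.2 (show (-4) % 8 = 4 % 8 by decide)]
theorem B_ne (i j : ℤ) : a ^ i * b ≠ a ^ j := fun e => by
  have h1 := D.b_a 1
  rw [show b = a ^ (j - i) by rw [eq_inv_mul_of_mul_eq e]; group, ← zpow_add, ← zpow_add, D.aeq] at h1
  omega
theorem oB (i : ℤ) : orderOf (a ^ i * b) = 2 := two_of (D.B_sq i) (by simpa using D.B_ne i 0)
theorem oz : orderOf (a ^ 4) = 2 := two_of D.zz D.z_ne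
theorem aiK (i : ℤ) : a ^ i ∈ K := zpow_mem D.aK i
theorem BK (i : ℤ) : a ^ i * b ∈ K := mul_mem (D.aiK i) D.bK
theorem a_even (i : ℤ) : a ^ (2 * i) ∈ L := by
  rw [zpow_mul, zpow_two]
  exact zpow_mem ((D.mulL _ D.aK _ D.aK).2 Iff.rfl) i
theorem zL : a ^ 4 ∈ L := by simpa [zpow_ofNat] using D.a_even 2
theorem B_even {i : ℤ} (h : i % 2 = 0) : a ^ i * b ∈ L := by
  rw [show i = 2 * (i / 2) by omega]; exact mul_mem (D.a_even _) D.bL
theorem B_odd {i : ℤ} (h : i % 2 = 1) : a ^ i * b ∉ L := by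
  rw [show i = 2 * (i / 2) + 1 by omega, mul_mem_cancel_right D.bL, zpow_add, zpow_one,
    mul_mem_cancel_left (D.a_even _)]
  exact D.aL
theorem abL : a * b ∉ L := by simpa using D.B_odd (i := 1) rfl
theorem abK : a * b ∈ K := mul_mem D.aK D.bK
theorem oab : orderOf (a * b) = 2 := by simpa using D.oB 1
theorem tK {k : G} (hk : k ∈ K) : t * k ∉ K := fun h => D.spl.notMem ((mul_mem_cancel_right hk).1 h)
theorem ct {k : G} (hk : k ∈ K) : Commute t k := (D.spl.comm k hk).symm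
theorem tk_sq {k : G} (hk : k ∈ K) : t * k * (t * k) = k * k := by
  rw [(D.ct hk).symm.mul_mul_mul_comm, D.tt, one_mul]
theorem cent {g : G} (h : Commute g t) : g ∈ K ∨ ∃ k ∈ K, g = t * k :=
  (D.spl.all g h).imp_right fun e => ⟨_, e, by rw [← mul_assoc, D.tt, one_mul]⟩
theorem conj_t {k c d : G} (hk : k ∈ K) (e : k * c * k⁻¹ = d) : IsConj (t * c) (t * d) :=
  conj_of (g := k) (by rw [← e, ← mul_assoc, ← (D.ct hk).eq]; group)

theorem z_comm : a ^ 2 * b * (a ^ 2)⁻¹ * b⁻¹ = a ^ 4 := by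
  rw [show a ^ 2 * b * (a ^ 2)⁻¹ * b⁻¹ = a ^ 2 * ((b * a * b⁻¹) ^ 2)⁻¹ by rw [conj_pow]; group, D.ba]
  group

/-- `z` is not conjugate to an involution whose centraliser splits. -/
theorem P1 {t' l : G} {K' : Subgroup G} (h : Spl t' K') (hl : l ∈ L) (ol : orderOf l = 2) :
    ¬ IsConj l t' := fun c =>
  let ⟨_, _, e⟩ := D.inner _ D.zL _ hl D.oz ol
  not_conj h (Commute.pow_pow_self a 2 4) D.bz D.z_comm ((conj_of e).trans c)

theorem ctx (h : Ctx x s W) (hW : Nat.card W = 4) : ∃ s' W', Ctx x₂ s' W' ∧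
    ∀ v, v ∈ W' ↔ v = 1 ∨ v = t ∨ v = a * b ∨ v = t * (a * b) := by
  obtain ⟨g, e⟩ := conj3 h D.ox₂
  have h' := e ▸ ctx_conj h g
  refine ⟨_, _, h', Set.ext_iff.1 (Set.eq_of_subset_of_ncard_le (s := {1, t, a * b, t * (a * b)})
    (t := (cj g W : Set G)) ?_ ?_).symm⟩
  · have h1 := mem_W h' D.tt (D.ct D.x₂K)
    have h2 := mem_W h' (sq_of_two D.oab) D.x₂c.symm
    rintro _ (rfl | rfl | rfl | rfl)
    exacts [one_mem _, h1, h2, mul_mem h1 h2]
  · have n1 : t ≠ a * b := fun e => D.spl.notMem (e ▸ D.abK)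
    have n2 : ∀ k ∈ K, k ≠ t * (a * b) := fun k hk e => D.tK D.abK (e ▸ hk)
    rw [← Nat.card_coe_set_eq, SetLike.coe_sort_coe, card_cj, hW, Set.ncard_insert_of_notMem (by
      simp [(ne_of_two D.ot).symm, (ne_of_two D.oab).symm, n2 1 (one_mem _)]),
      Set.ncard_insert_of_notMem (by simp [n1, ne_of_two D.oab]), Set.ncard_pair (n2 _ D.abK)]

variable (h : Ctx x s W) (hW : Nat.card W = 4)
include h hW

theorem nc : ¬ IsConj t (a * b) ∧ ¬ IsConj t (t * (a * b)) ∧ ¬ IsConj (a * b) (t * (a * b)) := by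
  obtain ⟨s', W', h', e⟩ := D.ctx h hW
  refine ⟨fun c => D.spl.notMem ?_, fun c => ne_of_two D.oab ?_, fun c => D.tK D.abK ?_⟩
  · exact h'.nc _ ((e _).2 (by simp)) _ ((e _).2 (by simp)) c ▸ D.abK
  · exact left_eq_mul.1 (h'.nc _ ((e _).2 (by simp)) _ ((e _).2 (by simp)) c)
  · exact h'.nc _ ((e _).2 (by simp)) _ ((e _).2 (by simp)) c ▸ D.abK

theorem cls {i : G} (hi : orderOf i = 2) (h3 : T3 i) :
    IsConj t i ∨ IsConj (a * b) i ∨ IsConj (t * (a * b)) i := by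
  obtain ⟨s', W', h', e⟩ := D.ctx h hW
  obtain ⟨y, hy, c⟩ := h3
  obtain ⟨g, rfl⟩ := conj3 h' hy
  have k : g * (g⁻¹ * i * g) * g⁻¹ = i := by group
  rcases (e _).1 (mem_W h' (t := g⁻¹ * i * g) (by
    rw [show g⁻¹ * i * g * (g⁻¹ * i * g) = g⁻¹ * (i * i) * g by group, sq_of_two hi]; group)
    (by simpa [mul_assoc] using comm_conj c.symm g⁻¹)) with m | m | m | m <;> rw [m] at k
  · exact absurd (by rw [← k]; group) (ne_of_two hi)
  exacts [.inl (conj_of k), .inr (.inl (conj_of k)), .inr (.inr (conj_of k))]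

theorem P2 {l : G} (hl : l ∈ L) (ol : orderOf l = 2) : IsConj t (t * l) := by
  obtain ⟨s', W', h', e⟩ := D.ctx h hW
  obtain ⟨n1, n2, -⟩ := D.nc h hW
  obtain ⟨w, hw, c⟩ := h'.f2 t D.ot
  have ht : t ∈ W' := (e _).2 (by simp)
  have c1 : Commute w t := by
    rcases (e w).1 hw with rfl | rfl | rfl | rfl
    exacts [Commute.one_left _, Commute.refl _, (D.ct D.abK).symm,
      (Commute.refl _).mul_left (D.ct D.abK).symm]
  have o1 : orderOf (s' * w) = 2 := order_of_conj c.symm D.ot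
  rcases D.cent ((h'.cs t ht).symm.mul_left c1) with k | ⟨k, hk, e1⟩
  · by_cases m : s' * w ∈ L
    · exact absurd c (D.P1 D.spl m o1)
    · obtain ⟨g, -, e2⟩ := D.outer _ k m _ D.abK D.abL o1 D.oab
      exact absurd (c.symm.trans (conj_of e2)) n1
  · have o2 : orderOf k = 2 := two_of (by rw [← D.tk_sq hk, ← e1, sq_of_two o1]) fun e2 => by
      rw [e2, mul_one] at e1
      have := h'.inv
      rw [eq_mul_inv_of_mul_eq e1, ((h'.cx t ht).mul_left (h'.cx w hw).inv_left).eq,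
        mul_inv_cancel_right] at this
      exact absurd (h'.hx ▸ orderOf_dvd_of_pow_eq_one (n := 2) (by
        rw [sq]; exact mul_eq_one_iff_eq_inv.2 this)) (by decide)
    rw [e1] at c
    by_cases m : k ∈ L
    · obtain ⟨g, hg, e2⟩ := D.inner _ m _ hl o2 ol
      exact c.symm.trans (D.conj_t hg e2)
    · obtain ⟨g, hg, e2⟩ := D.outer _ hk m _ D.abK D.abL o2 D.oab
      exact absurd (c.symm.trans (D.conj_t hg e2)) n2

theorem P3 {i : G} (hi : orderOf i = 2) (c : Commute i t) : i ∈ L ∨ T3 i := by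
  have a1 : T3 t := ⟨x₂, D.ox₂, (D.ct D.x₂K).symm⟩
  by_cases m : i ∈ L
  · exact .inl m
  refine .inr ?_
  rcases D.cent c with k | ⟨k, hk, rfl⟩
  · obtain ⟨g, -, e⟩ := D.outer _ D.abK D.abL _ k m D.oab hi
    exact T3.conj ⟨x₂, D.ox₂, D.x₂c⟩ (conj_of e)
  by_cases e : k = 1
  · rwa [e, mul_one]
  have o2 : orderOf k = 2 := two_of (by rw [← D.tk_sq hk, sq_of_two hi]) e
  by_cases m : k ∈ L
  · exact a1.conj (D.P2 h hW m o2)
  · obtain ⟨g, hg, e⟩ := D.outer _ D.abK D.abL _ hk m D.oab o2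
    exact T3.conj ⟨x₂, D.ox₂, (D.ct D.x₂K).symm.mul_right D.x₂c⟩ (D.conj_t hg e)

end PD

end Cfsg.Agent.CV.A2x
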