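import Cfsg.Agent.H26.HZ

/-! The congruence for the height zero characters fixed by a power map of `p`-power order. -/

set_option autoImplicit false
open Cfsg Finset

namespace Cfsg.Agent.H26.HZ

open H86 H32

variable {G : Type*} [Group G] [Finite G] {p : ℕ} {M : Ideal AlgInt} [M.IsMaximal]

theorem powIrr_mem_hz (hM : IsPModular p M) {m : ℕ} (hm : m.Coprime (Nat.card G))
    {χ : IrrCharacter G} (hχ : χ ∈ hz p M G) : H33.powIrr hm χ ∈ hz p M G := by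
  obtain ⟨a, b, c⟩ := mem_hz.1 hχ
  exact mem_hz.2 ⟨H33.powIrr_mem_principalBlock hM hm a, by rwa [H33.charDegree_powIrr],
    fun e => c (powIrr_inj hm (e.trans (Subtype.ext rfl)))⟩

open Classical in
theorem cong_fixed (hM : IsPModular p M) (hd : p ∣ Nat.card G) {k : ℕ}
    (hk : k.Coprime (Nat.card G)) {a : ℕ} (hiter : ∀ g : G, g ^ k ^ p ^ a = g)
    (hreg : ∀ g : G, ¬ p ∣ orderOf g → g ^ k = g) (g : G) :
    1 + ∑ χ ∈ (hz p M G).filter (fun χ => H33.powIrr hk χ = χ),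
      (charDegree (χ : G → ℂ) : ℂ) * (χ : G → ℂ) g ∈ locMax M := by
  have := Fact.mk hM.1
  have := res_charP hM
  have hr : ∀ χ : IrrCharacter G, (charDegree (χ : G → ℂ) : ℂ) * (χ : G → ℂ) g ∈ locRing M :=
    fun χ => mul_mem (natCast_mem _ _) (irr_mem_locRing χ g)
  have h1 := cong hM hd g
  rw [← redC_eq_zero_iff (add_mem (one_mem _) (sum_mem fun χ _ => hr χ)),
    redC_add (one_mem _) (sum_mem fun χ _ => hr χ), redC_sum _ _ fun χ _ => hr χ] at h1 ⊢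
  rw [← h1, H33.sum_eq_sum_fixed_of_iterate (H33.powIrr hk) (H33.powIrr_iterate_eq hk hiter)
    (hz p M G) (fun χ hχ => powIrr_mem_hz hM hk hχ) _ fun χ _ => ?_]
  refine redC_eq_of_sub_mem (hr χ) ?_
  rw [H33.charDegree_powIrr, H33.powIrr_apply, ← mul_sub]
  refine mul_mem_locMax_left (natCast_mem _ _) ?_
  obtain ⟨x, y, rfl, hc, ⟨j, hj⟩, hy⟩ : ∃ x y : G, x * y = g ∧ Commute x y ∧
      (∃ j, orderOf x = p ^ j) ∧ ¬ p ∣ orderOf y := by
    obtain ⟨x, y, h⟩ := H33.exists_isPPart hM.1 g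
    exact ⟨x, y, h⟩
  have hχ := H5.isCharacter_of_isIrr χ.2
  rw [hc.mul_pow, hreg y hy]
  obtain ⟨i, -, hi⟩ := (Nat.dvd_prime_pow hM.1).1 (hj ▸ orderOf_pow_dvd (x := x) k)
  exact sub_mem_locMax_trans (H33.char_mul_sub_mem hM hχ (hc.pow_left k) ⟨i, hi⟩)
    (sub_mem_locMax_comm (H33.char_mul_sub_mem hM hχ hc ⟨j, hj⟩))

omit [M.IsMaximal] in
theorem coprime_three {k : ℕ} (hk₁ : ∀ g : G, (∃ j : ℕ, orderOf g = 2 ^ j) → g ^ k = g ^ 3)
    (hk₂ : ∀ g : G, Odd (orderOf g) → g ^ k = g) : k.Coprime (Nat.card G) := by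
  refine H33.coprime_card_of_forall_prime fun g hg h => ?_
  have hg1 : g ≠ 1 := fun h => by rw [h, orderOf_one] at hg; exact Nat.not_prime_one hg
  rcases hg.eq_two_or_odd' with h2 | h2
  · rw [hk₁ g ⟨1, h2⟩, pow_succ, ← h2, pow_orderOf_eq_one, one_mul] at h
    exact hg1 h
  · rw [hk₂ g h2] at h
    exact hg1 h

omit [M.IsMaximal] in
theorem iter_three {k : ℕ} (hk₁ : ∀ g : G, (∃ j : ℕ, orderOf g = 2 ^ j) → g ^ k = g ^ 3)
    (hk₂ : ∀ g : G, Odd (orderOf g) → g ^ k = g) (g : G) :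
    g ^ k ^ 2 ^ (Nat.card G).factorization 2 = g := by
  set a := (Nat.card G).factorization 2 with ha
  obtain ⟨x, y, rfl, hc, ⟨j, hj⟩, hy⟩ : ∃ x y : G, x * y = g ∧ Commute x y ∧
      (∃ j, orderOf x = 2 ^ j) ∧ ¬ 2 ∣ orderOf y := by
    obtain ⟨x, y, h⟩ := H33.exists_isPPart Nat.prime_two g
    exact ⟨x, y, h⟩
  have hy' : ∀ m : ℕ, y ^ k ^ m = y := by
    intro m
    induction m with
    | zero => simp
    | succ m ih => rw [pow_succ, pow_mul, ih, hk₂ y (Nat.odd_iff.2 (by omega))]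
  have hx' : ∀ m : ℕ, x ^ k ^ m = x ^ 3 ^ m := by
    intro m
    induction m with
    | zero => simp
    | succ m ih =>
      rw [pow_succ, pow_mul, ih, ← pow_mul, mul_comm, pow_mul, hk₁ x ⟨j, hj⟩, ← pow_mul,
        pow_succ']
  have hja : j ≤ a := by
    have h1 : 2 ^ j ∣ Nat.card G := hj ▸ orderOf_dvd_natCard x
    exact (Nat.prime_two.pow_dvd_iff_le_factorization Nat.card_pos.ne').1 h1
  have h3 : 3 ^ 2 ^ a ≡ 1 [MOD 2 ^ (a + 1)] := by
    have := Nat.ModEq.pow_totient (x := 3) (n := 2 ^ (a + 1))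
      (Nat.Coprime.pow_right _ (by norm_num))
    rwa [Nat.totient_prime_pow_succ Nat.prime_two, show 2 - 1 = 1 from rfl, mul_one] at this
  rw [hc.mul_pow, hy', hx']
  congr 1
  conv_rhs => rw [← pow_one x]
  exact pow_eq_pow_iff_modEq.2 (h3.of_dvd (hj ▸ pow_dvd_pow 2 (by omega)))

end Cfsg.Agent.H26.HZ
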